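import Mathlib

/-!
# An element of order 13 commuting with a hermitian matrix `X`, `X^4 + X^2 + X = 0`

`θ` is any additive, anti-multiplicative map of the matrix algebra, semilinear for `c ↦ c ^ 4`,
with `det (θ A) = det A ^ 4`. If `θ X = X`, `X ≠ 0` and `X ^ 4 + X ^ 2 + X = 0` (char. 2), there is a
polynomial `g` in `X` with `g * θ g = 1`, `det g = 1`, `g ^ 13 = 1`, `g ≠ 1`.
-/

set_option autoImplicit false

namespace Cfsg.Agent.H159.L34.Y13

open Polynomial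

variable {K : Type*} [Field K]

/-- the three idempotent polynomials -/
noncomputable def p1 (a : K) : K[X] := X ^ 3 + C a * X ^ 2 + C a ^ 6 * X
/-- second -/
noncomputable def p2 (a : K) : K[X] := X ^ 3 + C a ^ 2 * X ^ 2 + C a ^ 5 * X
/-- third -/
noncomputable def p4 (a : K) : K[X] := X ^ 3 + C a ^ 4 * X ^ 2 + C a ^ 3 * X
/-- the modulus -/
noncomputable def md : K[X] := X ^ 4 + X ^ 2 + X

theorem hC {a : K} (ha : a ^ 3 + a + 1 = 0) : (C a ^ 3 + C a + 1 : K[X]) = 0 := by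
  rw [← C_1, ← C_pow, ← C_add, ← C_add, ha, C_0]

theorem hT (h2 : (2 : K) = 0) : (2 : K[X]) = 0 := by
  rw [← map_ofNat (C : K →+* K[X]) 2, h2, C_0]

theorem m11 {a : K} (ha : a ^ 3 + a + 1 = 0) (h2 : (2 : K) = 0) :
    p1 a * p1 a = p1 a + ((2) * (C a)^6 + (1) * (C a)^2 + (2) * (C a)^1 * X^1 + (1) * X^2 + (-1)) * md := by
  have hA := hC ha
  have hB := hT h2
  unfold p1 md
  linear_combination ((1) * (C a)^9 * X^2 + (-1) * (C a)^7 * X^2 + (-1) * (C a)^6 * X^2 + (1) * (C a)^5 * X^2 + (2) * (C a)^4 * X^3 + (2) * (C a)^4 * X^2 + (-2) * (C a)^3 * X^2 + (-3) * (C a)^3 * X^1 + (-2) * (C a)^2 * X^3 + (-3) * (C a)^2 * X^2 + (-2) * (C a)^1 * X^3 + (3) * (C a)^1 * X^1 + (2) * X^3 + (5) * X^2 + (3) * X^1) * hA + ((2) * (C a)^2 * X^3 + (1) * (C a)^2 * X^2 + (-2) * (C a)^2 * X^1 + (-1) * (C a)^1 * X^3 + (-4) * (C a)^1 * X^2 + (-3) * (C a)^1 * X^1 + (-2) * X^3 + (-2) * X^2 + (-1) * X^1) * hB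

theorem m22 {a : K} (ha : a ^ 3 + a + 1 = 0) (h2 : (2 : K) = 0) :
    p2 a * p2 a = p2 a + ((2) * (C a)^5 + (1) * (C a)^4 + (2) * (C a)^2 * X^1 + (1) * X^2 + (-1)) * md := by
  have hA := hC ha
  have hB := hT h2
  unfold p2 md
  linear_combination ((1) * (C a)^7 * X^2 + (-1) * (C a)^5 * X^2 + (2) * (C a)^4 * X^3 + (-1) * (C a)^4 * X^2 + (1) * (C a)^3 * X^2 + (-2) * (C a)^2 * X^3 + (-3) * (C a)^2 * X^1 + (-2) * (C a)^1 * X^3 + (-1) * (C a)^1 * X^2 + (-1) * (C a)^1 * X^1 + (2) * X^3 + (-1) * X^2 + (3) * X^1) * hA + ((1) * (C a)^2 * X^3 + (-1) * (C a)^2 * X^2 + (2) * (C a)^2 * X^1 + (1) * (C a)^1 * X^2 + (-1) * (C a)^1 * X^1 + (-2) * X^3 + (1) * X^2 + (-1) * X^1) * hB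

theorem m44 {a : K} (ha : a ^ 3 + a + 1 = 0) (h2 : (2 : K) = 0) :
    p4 a * p4 a = p4 a + ((1) * (C a)^8 + (2) * (C a)^4 * X^1 + (2) * (C a)^3 + (1) * X^2 + (-1)) * md := by
  have hA := hC ha
  have hB := hT h2
  unfold p4 md
  linear_combination ((-1) * (C a)^5 * X^2 + (-1) * (C a)^5 * X^1 + (2) * (C a)^4 * X^3 + (2) * (C a)^3 * X^2 + (1) * (C a)^3 * X^1 + (-2) * (C a)^2 * X^3 + (1) * (C a)^2 * X^2 + (1) * (C a)^2 * X^1 + (-4) * (C a)^1 * X^3 + (-5) * (C a)^1 * X^2 + (-1) * (C a)^1 * X^1 + (2) * X^3 + (-5) * X^2 + (-5) * X^1) * hA + ((3) * (C a)^2 * X^3 + (2) * (C a)^2 * X^2 + (1) * (C a)^1 * X^3 + (5) * (C a)^1 * X^2 + (3) * (C a)^1 * X^1 + (-2) * X^3 + (3) * X^2 + (3) * X^1) * hB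

theorem m12 {a : K} (ha : a ^ 3 + a + 1 = 0) (h2 : (2 : K) = 0) :
    p1 a * p2 a = ((1) * (C a)^6 + (1) * (C a)^5 + (1) * (C a)^3 + (1) * (C a)^2 * X^1 + (1) * (C a)^1 * X^1 + (1) * X^2 + (-1)) * md := by
  have hA := hC ha
  have hB := hT h2
  unfold p1 p2 md
  linear_combination ((1) * (C a)^8 * X^2 + (-1) * (C a)^6 * X^2 + (1) * (C a)^5 * X^3 + (-1) * (C a)^5 * X^2 + (1) * (C a)^4 * X^2 + (1) * (C a)^3 * X^2 + (-1) * (C a)^3 * X^1 + (-1) * (C a)^2 * X^3 + (-1) * (C a)^2 * X^2 + (-1) * (C a)^2 * X^1 + (-2) * (C a)^1 * X^2 + (1) * (C a)^1 * X^1 + (1) * X^3 + (-1) * X^2 + (1) * X^1) * hA + ((1) * (C a)^2 * X^2 + (-1) * (C a)^1 * X^3 + (1) * (C a)^1 * X^2 + (-1) * (C a)^1 * X^1 + (-1) * X^3 + (1) * X^2) * hB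

theorem m14 {a : K} (ha : a ^ 3 + a + 1 = 0) (h2 : (2 : K) = 0) :
    p1 a * p4 a = ((1) * (C a)^6 + (1) * (C a)^5 + (1) * (C a)^4 * X^1 + (1) * (C a)^3 + (1) * (C a)^1 * X^1 + (1) * X^2 + (-1)) * md := by
  have hA := hC ha
  have hB := hT h2
  unfold p1 p4 md
  linear_combination ((1) * (C a)^7 * X^3 + (1) * (C a)^6 * X^2 + (-1) * (C a)^5 * X^3 + (-1) * (C a)^4 * X^3 + (-1) * (C a)^4 * X^2 + (1) * (C a)^3 * X^3 + (-2) * (C a)^3 * X^2 + (-1) * (C a)^3 * X^1 + (2) * (C a)^2 * X^3 + (-1) * (C a)^2 * X^1 + (2) * (C a)^1 * X^2 + (1) * (C a)^1 * X^1 + (-3) * X^3 + (1) * X^2 + (1) * X^1) * hA + ((-1) * (C a)^2 * X^3 + (-1) * (C a)^2 * X^2 + (1) * (C a)^1 * X^3 + (-2) * (C a)^1 * X^2 + (-1) * (C a)^1 * X^1 + (1) * X^3) * hB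

theorem m24 {a : K} (ha : a ^ 3 + a + 1 = 0) (h2 : (2 : K) = 0) :
    p2 a * p4 a = ((1) * (C a)^6 + (1) * (C a)^5 + (1) * (C a)^4 * X^1 + (1) * (C a)^3 + (1) * (C a)^2 * X^1 + (1) * X^2 + (-1)) * md := by
  have hA := hC ha
  have hB := hT h2
  unfold p2 p4 md
  linear_combination ((1) * (C a)^6 * X^3 + (1) * (C a)^5 * X^2 + (-1) * (C a)^4 * X^3 + (-1) * (C a)^3 * X^3 + (-2) * (C a)^3 * X^2 + (-1) * (C a)^3 * X^1 + (2) * (C a)^2 * X^3 + (-2) * (C a)^2 * X^2 + (-1) * (C a)^2 * X^1 + (1) * (C a)^1 * X^3 + (1) * (C a)^1 * X^2 + (1) * (C a)^1 * X^1 + (-1) * X^3 + (3) * X^2 + (1) * X^1) * hA + ((-2) * (C a)^2 * X^3 + (-2) * (C a)^1 * X^2 + (-1) * (C a)^1 * X^1 + (-1) * X^2) * hB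

theorem mX {a : K} (ha : a ^ 3 + a + 1 = 0) (h2 : (2 : K) = 0) :
    C a * p1 a + C a ^ 2 * p2 a + C a ^ 4 * p4 a = X := by
  have hA := hC ha
  have hB := hT h2
  unfold p1 p2 p4
  linear_combination ((1) * (C a)^5 * X^2 + (3) * (C a)^4 * X^1 + (-1) * (C a)^3 * X^2 + (-1) * (C a)^2 * X^2 + (-3) * (C a)^2 * X^1 + (1) * (C a)^1 * X^3 + (2) * (C a)^1 * X^2 + (-3) * (C a)^1 * X^1 + (2) * X^2 + (3) * X^1) * hA + ((3) * (C a)^2 * X^1 + (-2) * (C a)^1 * X^2 + (-1) * X^2 + (-2) * X^1) * hB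

section mat

set_option linter.unusedSectionVars false

variable {n : Type*} [Fintype n] [DecidableEq n]

theorem comm (X : Matrix n n K) (p q : K[X]) :
    aeval X p * aeval X q = aeval X q * aeval X p := by
  rw [← map_mul, mul_comm, map_mul]

theorem a_p1 (X : Matrix n n K) (a : K) :
    aeval X (p1 a) = X ^ 3 + a • X ^ 2 + a ^ 6 • X := by
  simp [p1, Algebra.smul_def]

theorem a_p2 (X : Matrix n n K) (a : K) :
    aeval X (p2 a) = X ^ 3 + a ^ 2 • X ^ 2 + a ^ 5 • X := by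
  simp [p2, Algebra.smul_def]

theorem a_p4 (X : Matrix n n K) (a : K) :
    aeval X (p4 a) = X ^ 3 + a ^ 4 • X ^ 2 + a ^ 3 • X := by
  simp [p4, Algebra.smul_def]

theorem a_md {X : Matrix n n K} (hX : X ^ 4 + X ^ 2 + X = 0) : aeval X (md : K[X]) = 0 := by
  simp [md, hX]

/-- `1` off `e`, `c` on `e` -/
def F (c : K) (e : Matrix n n K) : Matrix n n K := 1 + (c - 1) • e

theorem F_one (e : Matrix n n K) : F 1 e = 1 := by simp [F]

theorem F_mul {e : Matrix n n K} (he : e * e = e) (c d : K) : F c e * F d e = F (c * d) e := by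
  have : F c e * F d e = 1 + ((c - 1) + (d - 1)) • e + ((c - 1) * (d - 1)) • (e * e) := by
    unfold F
    simp only [add_mul, mul_add, one_mul, mul_one, smul_mul_assoc, mul_smul_comm]
    module
  rw [this, he, F]
  module

theorem F_pow {e : Matrix n n K} (he : e * e = e) (c : K) (k : ℕ) : F c e ^ k = F (c ^ k) e := by
  induction k with
  | zero => simp [F_one]
  | succ k ih => rw [pow_succ, ih, F_mul he, pow_succ]

theorem e_F {e : Matrix n n K} (he : e * e = e) (c : K) : e * F c e = c • e := by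
  unfold F
  rw [mul_add, mul_one, mul_smul_comm, he]
  module

theorem e_F' {e f : Matrix n n K} (he : e * f = 0) (c : K) : e * F c f = e := by
  unfold F
  rw [mul_add, mul_one, mul_smul_comm, he, smul_zero, add_zero]

/-- a polynomial form of `F` -/
noncomputable def Fp (c : K) (p : K[X]) : K[X] := 1 + C (c - 1) * p

theorem a_Fp (X : Matrix n n K) (c : K) (p : K[X]) : aeval X (Fp c p) = F c (aeval X p) := by
  simp [Fp, F, Algebra.smul_def]

/-- abstract semilinear anti-automorphism of the matrix algebra -/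
structure Anti (θ : Matrix n n K → Matrix n n K) : Prop where
  add : ∀ A B, θ (A + B) = θ A + θ B
  mul : ∀ A B, θ (A * B) = θ B * θ A
  smul : ∀ (c : K) A, θ (c • A) = c ^ 4 • θ A
  one : θ 1 = 1
  det : ∀ A, (θ A).det = A.det ^ 4

theorem Anti.F {θ : Matrix n n K → Matrix n n K} (h : Anti θ) (h2 : (2 : K) = 0) (c : K)
    (e : Matrix n n K) : θ (F c e) = Y13.F (c ^ 4) (θ e) := by
  unfold Y13.F
  rw [h.add, h.one, h.smul]
  have : (c - 1) ^ 4 = c ^ 4 - 1 := by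
    linear_combination (-2 * c ^ 3 + 3 * c ^ 2 - 2 * c + 1) * h2
  rw [this]

theorem Anti.X2 {θ : Matrix n n K → Matrix n n K} (h : Anti θ) {X : Matrix n n K}
    (hX : θ X = X) : θ (X ^ 2) = X ^ 2 := by
  rw [pow_two, h.mul, hX]

theorem Anti.X3 {θ : Matrix n n K → Matrix n n K} (h : Anti θ) {X : Matrix n n K}
    (hX : θ X = X) : θ (X ^ 3) = X ^ 3 := by
  calc θ (X ^ 3) = θ (X ^ 2 * X) := by rw [← pow_succ]
    _ = X * X ^ 2 := by rw [h.mul, hX, h.X2 hX]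
    _ = X ^ 3 := by rw [← pow_succ']

theorem a7 {a : K} (ha : a ^ 3 + a + 1 = 0) (h2 : (2 : K) = 0) : a ^ 7 = 1 := by
  linear_combination (a ^ 4 - a ^ 2 - a + 1) * ha + (a ^ 2 - 1) * h2

theorem th_lin {θ : Matrix n n K → Matrix n n K} (h : Anti θ) {X : Matrix n n K}
    (hX : θ X = X) (b c : K) :
    θ (X ^ 3 + b • X ^ 2 + c • X) = X ^ 3 + b ^ 4 • X ^ 2 + c ^ 4 • X := by
  rw [h.add, h.add, h.smul, h.smul, hX, h.X2 hX, h.X3 hX]

theorem th1 {θ : Matrix n n K → Matrix n n K} (h : Anti θ) {X : Matrix n n K}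
    (hX : θ X = X) {a : K} (ha : a ^ 3 + a + 1 = 0) (h2 : (2 : K) = 0) :
    θ (aeval X (p1 a)) = aeval X (p4 a) := by
  have h7 := a7 ha h2
  rw [a_p1, a_p4, th_lin h hX]
  have : (a ^ 6) ^ 4 = a ^ 3 := by
    linear_combination (a ^ 17 + a ^ 10 + a ^ 3) * h7
  rw [this]

theorem th4 {θ : Matrix n n K → Matrix n n K} (h : Anti θ) {X : Matrix n n K}
    (hX : θ X = X) {a : K} (ha : a ^ 3 + a + 1 = 0) (h2 : (2 : K) = 0) :
    θ (aeval X (p4 a)) = aeval X (p2 a) := by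
  have h7 := a7 ha h2
  rw [a_p4, a_p2, th_lin h hX]
  have h1 : (a ^ 4) ^ 4 = a ^ 2 := by
    linear_combination (a ^ 9 + a ^ 2) * h7
  have h3 : (a ^ 3) ^ 4 = a ^ 5 := by
    linear_combination (a ^ 5) * h7
  rw [h1, h3]

theorem th2 {θ : Matrix n n K → Matrix n n K} (h : Anti θ) {X : Matrix n n K}
    (hX : θ X = X) {a : K} (ha : a ^ 3 + a + 1 = 0) (h2 : (2 : K) = 0) :
    θ (aeval X (p2 a)) = aeval X (p1 a) := by
  have h7 := a7 ha h2
  rw [a_p2, a_p1, th_lin h hX]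
  have h1 : (a ^ 2) ^ 4 = a := by
    linear_combination a * h7
  have h3 : (a ^ 5) ^ 4 = a ^ 6 := by
    linear_combination (a ^ 13 + a ^ 6) * h7
  rw [h1, h3]

/-- the element of order 13 -/
noncomputable def gg (X : Matrix n n K) (a z : K) : Matrix n n K :=
  F z (aeval X (p1 a)) * F (z ^ 9) (aeval X (p4 a)) * F (z ^ 3) (aeval X (p2 a))

theorem gg_eq (X : Matrix n n K) (a z : K) :
    gg X a z = aeval X (Fp z (p1 a) * Fp (z ^ 9) (p4 a) * Fp (z ^ 3) (p2 a)) := by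
  rw [map_mul, map_mul, a_Fp, a_Fp, a_Fp, gg]

theorem idem1 {X : Matrix n n K} (hX : X ^ 4 + X ^ 2 + X = 0) {a : K} (ha : a ^ 3 + a + 1 = 0)
    (h2 : (2 : K) = 0) : aeval X (p1 a) * aeval X (p1 a) = aeval X (p1 a) := by
  rw [← map_mul, m11 ha h2, map_add, map_mul, a_md hX, mul_zero, add_zero]

theorem idem2 {X : Matrix n n K} (hX : X ^ 4 + X ^ 2 + X = 0) {a : K} (ha : a ^ 3 + a + 1 = 0)
    (h2 : (2 : K) = 0) : aeval X (p2 a) * aeval X (p2 a) = aeval X (p2 a) := by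
  rw [← map_mul, m22 ha h2, map_add, map_mul, a_md hX, mul_zero, add_zero]

theorem idem4 {X : Matrix n n K} (hX : X ^ 4 + X ^ 2 + X = 0) {a : K} (ha : a ^ 3 + a + 1 = 0)
    (h2 : (2 : K) = 0) : aeval X (p4 a) * aeval X (p4 a) = aeval X (p4 a) := by
  rw [← map_mul, m44 ha h2, map_add, map_mul, a_md hX, mul_zero, add_zero]

theorem orth12 {X : Matrix n n K} (hX : X ^ 4 + X ^ 2 + X = 0) {a : K} (ha : a ^ 3 + a + 1 = 0)
    (h2 : (2 : K) = 0) : aeval X (p1 a) * aeval X (p2 a) = 0 := by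
  rw [← map_mul, m12 ha h2, map_mul, a_md hX, mul_zero]

theorem orth14 {X : Matrix n n K} (hX : X ^ 4 + X ^ 2 + X = 0) {a : K} (ha : a ^ 3 + a + 1 = 0)
    (h2 : (2 : K) = 0) : aeval X (p1 a) * aeval X (p4 a) = 0 := by
  rw [← map_mul, m14 ha h2, map_mul, a_md hX, mul_zero]

theorem orth24 {X : Matrix n n K} (hX : X ^ 4 + X ^ 2 + X = 0) {a : K} (ha : a ^ 3 + a + 1 = 0)
    (h2 : (2 : K) = 0) : aeval X (p2 a) * aeval X (p4 a) = 0 := by
  rw [← map_mul, m24 ha h2, map_mul, a_md hX, mul_zero]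

theorem exists_a [IsAlgClosed K] : ∃ a : K, a ^ 3 + a + 1 = 0 := by
  have hd : (X ^ 3 + X + 1 : K[X]).degree ≠ 0 := by
    have : (X ^ 3 + X + 1 : K[X]).degree = 3 := by compute_degree!
    rw [this]; decide
  obtain ⟨a, ha⟩ := IsAlgClosed.exists_root _ hd
  exact ⟨a, by simpa [IsRoot.def] using ha⟩

theorem exists_z [IsAlgClosed K] (h2 : (2 : K) = 0) : ∃ z : K, z ^ 13 = 1 ∧ z ≠ 1 := by
  have h13 : (13 : K) ≠ 0 := by
    intro h
    have : (1 : K) = 0 := by linear_combination h - 6 * h2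
    exact one_ne_zero this
  have : NeZero ((13 : ℕ) : K) := ⟨by exact_mod_cast h13⟩
  have hd : (cyclotomic 13 K).degree ≠ 0 := by
    rw [degree_cyclotomic]
    decide
  obtain ⟨z, hz⟩ := IsAlgClosed.exists_root _ hd
  rw [isRoot_cyclotomic_iff] at hz
  exact ⟨z, hz.pow_eq_one, hz.ne_one (by norm_num)⟩

/-- the determinant of `F c e` is multiplicative in `c` -/
theorem dF {e : Matrix n n K} (he : e * e = e) (c : K) (k : ℕ) :
    (F (c ^ k) e).det = (F c e).det ^ k := by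
  rw [← F_pow he, Matrix.det_pow]

theorem exists13 [IsAlgClosed K] (h2 : (2 : K) = 0) {θ : Matrix n n K → Matrix n n K}
    (h : Anti θ) {X : Matrix n n K} (hθ : θ X = X) (hX : X ^ 4 + X ^ 2 + X = 0) (h0 : X ≠ 0) :
    ∃ P : K[X], (aeval X P) * θ (aeval X P) = 1 ∧ (aeval X P).det = 1 ∧
      (aeval X P) ^ 13 = 1 ∧ aeval X P ≠ 1 := by
  obtain ⟨a, ha⟩ := exists_a (K := K)
  obtain ⟨z, hz, hz1⟩ := exists_z (K := K) h2
  have i1 := idem1 hX ha h2
  have i2 := idem2 hX ha h2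
  have i4 := idem4 hX ha h2
  have o12 := orth12 hX ha h2
  have o14 := orth14 hX ha h2
  have o24 := orth24 hX ha h2
  have o21 : aeval X (p2 a) * aeval X (p1 a) = 0 := by rw [comm, o12]
  have o41 : aeval X (p4 a) * aeval X (p1 a) = 0 := by rw [comm, o14]
  have o42 : aeval X (p4 a) * aeval X (p2 a) = 0 := by rw [comm, o24]
  have t1 := th1 h hθ ha h2
  have t2 := th2 h hθ ha h2
  have t4 := th4 h hθ ha h2
  -- commutation
  have cF : ∀ (c d : K) (p q : K[X]),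
      F c (aeval X p) * F d (aeval X q) = F d (aeval X q) * F c (aeval X p) := by
    intro c d p q
    rw [← a_Fp, ← a_Fp, comm]
  refine ⟨Fp z (p1 a) * Fp (z ^ 9) (p4 a) * Fp (z ^ 3) (p2 a), ?_, ?_, ?_, ?_⟩
  · rw [← gg_eq]
    unfold gg
    rw [h.mul, h.mul, h.F h2, h.F h2, h.F h2, t1, t2, t4]
    have r1 : F z (aeval X (p1 a)) * F ((z ^ 3) ^ 4) (aeval X (p1 a)) = 1 := by
      rw [F_mul i1, show z * (z ^ 3) ^ 4 = z ^ 13 by ring, hz, F_one]
    have r4 : F (z ^ 9) (aeval X (p4 a)) * F (z ^ 4) (aeval X (p4 a)) = 1 := by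
      rw [F_mul i4, show z ^ 9 * z ^ 4 = z ^ 13 by ring, hz, F_one]
    have r2 : F (z ^ 3) (aeval X (p2 a)) * F ((z ^ 9) ^ 4) (aeval X (p2 a)) = 1 := by
      rw [F_mul i2, show z ^ 3 * (z ^ 9) ^ 4 = (z ^ 13) ^ 3 by ring, hz, one_pow, F_one]
    calc F z (aeval X (p1 a)) * F (z ^ 9) (aeval X (p4 a)) * F (z ^ 3) (aeval X (p2 a)) *
          (F ((z ^ 3) ^ 4) (aeval X (p1 a)) *
            (F ((z ^ 9) ^ 4) (aeval X (p2 a)) * F (z ^ 4) (aeval X (p4 a))))
        = F z (aeval X (p1 a)) * F (z ^ 9) (aeval X (p4 a)) *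
          ((F (z ^ 3) (aeval X (p2 a)) * F ((z ^ 3) ^ 4) (aeval X (p1 a))) *
            (F ((z ^ 9) ^ 4) (aeval X (p2 a)) * F (z ^ 4) (aeval X (p4 a)))) := by
          simp only [mul_assoc]
      _ = F z (aeval X (p1 a)) * (F (z ^ 9) (aeval X (p4 a)) * F ((z ^ 3) ^ 4) (aeval X (p1 a))) *
          (F (z ^ 3) (aeval X (p2 a)) * F ((z ^ 9) ^ 4) (aeval X (p2 a))) *
            F (z ^ 4) (aeval X (p4 a)) := by
          rw [cF (z ^ 3) ((z ^ 3) ^ 4) (p2 a) (p1 a)]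
          simp only [mul_assoc]
      _ = (F z (aeval X (p1 a)) * F ((z ^ 3) ^ 4) (aeval X (p1 a))) *
          (F (z ^ 9) (aeval X (p4 a)) * F (z ^ 4) (aeval X (p4 a))) := by
          rw [r2, mul_one, cF (z ^ 9) ((z ^ 3) ^ 4) (p4 a) (p1 a)]
          simp only [mul_assoc]
      _ = 1 := by rw [r1, r4, mul_one]
  · rw [← gg_eq]
    unfold gg
    rw [Matrix.det_mul, Matrix.det_mul]
    -- u = det F z e1
    have d4 : (F (z ^ 4) (aeval X (p4 a))).det = (F z (aeval X (p1 a))).det ^ 4 := by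
      rw [← h.det, h.F h2, t1]
    have d9 : (F (z ^ 9) (aeval X (p4 a))).det = (F z (aeval X (p1 a))).det ^ 48 := by
      have : z ^ 9 = (z ^ 4) ^ 12 := by
        rw [← pow_mul]
        calc z ^ 9 = z ^ 9 * (z ^ 13) ^ 3 := by rw [hz]; ring
          _ = z ^ (4 * 12) := by ring
      rw [this, dF i4, d4, ← pow_mul]
    have d36 : (F ((z ^ 9) ^ 4) (aeval X (p2 a))).det = (F z (aeval X (p1 a))).det ^ 192 := by
      rw [← t4, ← h.F h2, h.det, d9, ← pow_mul]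
    have d3 : (F (z ^ 3) (aeval X (p2 a))).det = (F z (aeval X (p1 a))).det ^ (192 * 12) := by
      have : z ^ 3 = ((z ^ 9) ^ 4) ^ 12 := by
        rw [← pow_mul, ← pow_mul]
        calc z ^ 3 = z ^ 3 * (z ^ 13) ^ 33 := by rw [hz]; ring
          _ = z ^ (9 * 4 * 12) := by ring
      rw [this, dF i2, d36, ← pow_mul]
    have u13 : (F z (aeval X (p1 a))).det ^ 13 = 1 := by
      rw [← dF i1, hz, F_one, Matrix.det_one]
    rw [d9, d3]
    calc (F z (aeval X (p1 a))).det * (F z (aeval X (p1 a))).det ^ 48 *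
          (F z (aeval X (p1 a))).det ^ (192 * 12)
        = ((F z (aeval X (p1 a))).det ^ 13) ^ 181 := by ring
      _ = 1 := by rw [u13, one_pow]
  · rw [← gg_eq]
    unfold gg
    have c1 : Commute (F z (aeval X (p1 a)) * F (z ^ 9) (aeval X (p4 a)))
        (F (z ^ 3) (aeval X (p2 a))) := by
      refine Commute.mul_left ?_ ?_
      · exact cF _ _ _ _
      · exact cF _ _ _ _
    have c2 : Commute (F z (aeval X (p1 a))) (F (z ^ 9) (aeval X (p4 a))) := cF _ _ _ _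
    rw [c1.mul_pow, c2.mul_pow, F_pow i1, F_pow i4, F_pow i2, hz,
      show (z ^ 9) ^ 13 = (z ^ 13) ^ 9 by ring, show (z ^ 3) ^ 13 = (z ^ 13) ^ 3 by ring, hz,
      one_pow, one_pow, F_one, F_one, F_one, mul_one, mul_one]
  · rw [← gg_eq]
    intro hg
    have ne9 : z ^ 9 ≠ 1 := by
      intro h9
      apply hz1
      calc z = z * (z ^ 13) ^ 2 := by rw [hz]; ring
        _ = (z ^ 9) ^ 3 := by ring
        _ = 1 := by rw [h9, one_pow]
    have ne3 : z ^ 3 ≠ 1 := by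
      intro h3
      apply hz1
      calc z = z * (z ^ 13) ^ 2 := by rw [hz]; ring
        _ = (z ^ 3) ^ 9 := by ring
        _ = 1 := by rw [h3, one_pow]
    have k : ∀ (e : Matrix n n K) (c : K), c ≠ 1 → c • e = e → e = 0 := by
      intro e c hc he
      have : (c - 1) • e = 0 := by rw [sub_smul, one_smul, he, sub_self]
      rcases smul_eq_zero.1 this with h' | h'
      · exact absurd (sub_eq_zero.1 h') hc
      · exact h'
    have z1 : aeval X (p1 a) = 0 := by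
      apply k _ z hz1
      have : aeval X (p1 a) * gg X a z = z • aeval X (p1 a) := by
        unfold gg
        rw [← mul_assoc, ← mul_assoc, e_F i1, smul_mul_assoc, smul_mul_assoc, e_F' o14, e_F' o12]
      rw [← this, hg, mul_one]
    have z4 : aeval X (p4 a) = 0 := by
      apply k _ (z ^ 9) ne9
      have : aeval X (p4 a) * gg X a z = z ^ 9 • aeval X (p4 a) := by
        unfold gg
        rw [← mul_assoc, ← mul_assoc, e_F' o41, e_F i4, smul_mul_assoc, e_F' o42]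
      rw [← this, hg, mul_one]
    have z2 : aeval X (p2 a) = 0 := by
      apply k _ (z ^ 3) ne3
      have : aeval X (p2 a) * gg X a z = z ^ 3 • aeval X (p2 a) := by
        unfold gg
        rw [← mul_assoc, ← mul_assoc, e_F' o21, e_F' o24, e_F i2]
      rw [← this, hg, mul_one]
    apply h0
    have hx := congrArg (aeval X) (mX ha h2)
    rw [map_add, map_add, map_mul, map_mul, map_mul, z1, z2, z4, mul_zero, mul_zero, mul_zero,
      add_zero, add_zero, aeval_X] at hx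
    exact hx.symm

/-- `c ↦ c ^ 4` as a ring homomorphism -/
def fr4 (h2 : (2 : K) = 0) : K →+* K where
  toFun c := c ^ 4
  map_one' := one_pow 4
  map_mul' := fun x y => mul_pow x y 4
  map_zero' := by simp
  map_add' := fun x y => by
    linear_combination (2 * x ^ 3 * y + 3 * x ^ 2 * y ^ 2 + 2 * x * y ^ 3) * h2

/-- the concrete hermitian adjoint, any normalisation -/
theorem anti_conj (h2 : (2 : K) = 0) (S T : Matrix n n K) (hST : S * T = 1) :
    Anti (fun A : Matrix n n K => S * (A.map (fun c => c ^ 4)).transpose * T) := by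
  have hTS : T * S = 1 := mul_eq_one_comm.1 hST
  have hm : ∀ A : Matrix n n K, A.map (fun c => c ^ 4) = (fr4 h2).mapMatrix A := fun A => rfl
  refine ⟨?_, ?_, ?_, ?_, ?_⟩
  · intro A B
    simp only [hm, map_add, Matrix.transpose_add, mul_add, add_mul]
  · intro A B
    simp only [hm, map_mul, Matrix.transpose_mul]
    set P := ((fr4 h2).mapMatrix A).transpose
    set Q := ((fr4 h2).mapMatrix B).transpose
    calc S * (Q * P) * T = S * (Q * (T * S) * P) * T := by rw [hTS, mul_one]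
      _ = S * Q * T * (S * P * T) := by simp only [mul_assoc]
  · intro c A
    have : (c • A).map (fun c => c ^ 4) = c ^ 4 • A.map (fun c => c ^ 4) := by
      ext i j
      simp [mul_pow]
    simp only [this, Matrix.transpose_smul, mul_smul_comm, smul_mul_assoc]
  · simp only [hm, map_one, Matrix.transpose_one, mul_one, hST]
  · intro A
    simp only [hm]
    rw [Matrix.det_mul, Matrix.det_mul, Matrix.det_transpose, ← RingHom.map_det, mul_comm,
      ← mul_assoc, ← Matrix.det_mul, hTS, Matrix.det_one, one_mul]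
    rfl

end mat


end Cfsg.Agent.H159.L34.Y13
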